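import Cfsg.Agent.Blocks.Osima
import Cfsg.Agent.Blocks.Knorr
import Cfsg.Agent.H439.CC.Mult
import Cfsg.Agent.OddOrderCharacters.Clifford
import Cfsg.Agent.OddOrderCharacters.IndRes
import Cfsg.Agent.Characters.Linear

/-!
# S4879, row E8, p = 11: a second constituent of a projective character in the principal block (helper596)

* `dvd_of_unique` : if `χ₀` is the only member of the principal block with `[χ|U, ψ] ≠ 0` (`U` a `p'`-subgroup, `ψ` linear) and
  `[χ₀|U, ψ] = 1`, then `p ∣ χ₀(1)` (for `p ∣ |G|`);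
* `unique_of_one` : `[1_B^G|U, ψ] = 1` implies that at most one irreducible `χ` has `[χ|U, ψ] ≠ 0` and `[χ, 1_B^G] ≠ 0`.
-/

set_option autoImplicit false
set_option linter.unusedSectionVars false

open scoped ComplexConjugate

namespace Cfsg.Agent.H596.LB

open Cfsg Cfsg.Agent.Blocks Cfsg.Agent.Characters.Core Cfsg.Agent.H439.CC
open Cfsg.Agent.OddOrderCharacters.Clifford

universe u

variable {G : Type u} [Group G] {ℓ : ℕ} {M : Ideal AlgInt}

/-- the degree of the unique constituent in the principal block of a projective character is divisible by `p` -/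
theorem dvd_of_unique [Fintype G] (hM : IsPModular ℓ M) (U : Subgroup G) [Fintype ↥U] (hU : ¬ ℓ ∣ Nat.card U)
    (hG : ℓ ∣ Nat.card G) (ψ : ↥U →* ℂˣ) (χ₀ : IrrCharacter G) (h0 : χ₀ ∈ principalBlock M G)
    (h1 : classInner ((χ₀ : G → ℂ) ∘ U.subtype) (fun u : ↥U => (ψ u : ℂ)) = 1)
    (h2 : ∀ χ : IrrCharacter G, χ ∈ principalBlock M G →
      classInner ((χ : G → ℂ) ∘ U.subtype) (fun u : ↥U => (ψ u : ℂ)) ≠ 0 → χ = χ₀) :
    ℓ ∣ charDegree (χ₀ : G → ℂ) := by
  classical
  have := finite_irr (G := G)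
  have := Fintype.ofFinite (IrrCharacter G)
  have hP : M.IsPrime := Local.isPrime_of_isPModular hM
  have hB : IsPBlock M (principalBlock M G) := ⟨⟨1, isIrr_one⟩, rfl⟩
  have hGC : (Nat.card G : ℂ) ≠ 0 := by exact_mod_cast Nat.card_pos.ne'
  have hUC : (Nat.card U : ℂ) ≠ 0 := by exact_mod_cast Nat.card_pos.ne'
  set B := principalBlock M G with hBdef
  have e1 : ∑ χ : IrrCharacter G, (if χ ∈ B then (χ : G → ℂ) 1 *
      classInner ((χ : G → ℂ) ∘ U.subtype) (fun u : ↥U => (ψ u : ℂ)) else 0) = (χ₀ : G → ℂ) 1 := by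
    rw [Finset.sum_eq_single χ₀]
    · rw [if_pos h0, h1, mul_one]
    · intro χ _ hne
      by_cases hχ : χ ∈ B
      · rw [if_pos hχ]
        by_cases h3 : classInner ((χ : G → ℂ) ∘ U.subtype) (fun u : ↥U => (ψ u : ℂ)) = 0
        · rw [h3, mul_zero]
        · exact absurd (h2 χ hχ h3) hne
      · rw [if_neg hχ]
    · intro hc
      exact absurd (Finset.mem_univ _) hc
  have e2 : ∀ χ : IrrCharacter G, (if χ ∈ B then (χ : G → ℂ) 1 *
      classInner ((χ : G → ℂ) ∘ U.subtype) (fun u : ↥U => (ψ u : ℂ)) else 0) =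
      (Nat.card U : ℂ)⁻¹ * ∑ u : ↥U, (if χ ∈ B then (χ : G → ℂ) 1 * conj ((χ : G → ℂ) (u : G)⁻¹) else 0) *
        conj (ψ u : ℂ) := by
    intro χ
    by_cases hχ : χ ∈ B
    · simp only [if_pos hχ]
      rw [classInner_def, mul_left_comm, Finset.mul_sum]
      congr 1
      refine Finset.sum_congr rfl fun u _ => ?_
      rw [isCharacter_apply_inv (isIrr_isCharacter χ.2), Complex.conj_conj, Function.comp_apply, Subgroup.coe_subtype,
        mul_assoc]
    · simp only [if_neg hχ, zero_mul, Finset.sum_const_zero, mul_zero]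
  have e3 : (χ₀ : G → ℂ) 1 = (Nat.card G : ℂ) * ((Nat.card U : ℂ)⁻¹ * ∑ u : ↥U, blockCoeff B (u : G)⁻¹ *
      conj (ψ u : ℂ)) := by
    rw [Fintype.sum_congr _ _ e2] at e1
    rw [← e1, ← Finset.mul_sum, Finset.sum_comm, mul_left_comm]
    congr 1
    rw [Finset.mul_sum]
    refine Fintype.sum_congr _ _ fun u => ?_
    rw [← Finset.sum_mul, Osima.blockCoeff_eq_sum, ← mul_assoc, ← mul_assoc, mul_inv_cancel₀ hGC, one_mul]
  have hint : ∀ u : ↥U, IsIntegral ℤ (conj (ψ u : ℂ)) := by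
    intro u
    have h5 : (conj (ψ u : ℂ)) ^ Nat.card U = 1 := by
      rw [← map_pow, ← Units.val_pow_eq_pow_val, ← map_pow, pow_card_eq_one', map_one, Units.val_one, map_one]
    exact IsIntegral.of_pow Nat.card_pos (by rw [h5]; exact isIntegral_one)
  have h3 : MemLocalIdeal M ((χ₀ : G → ℂ) 1) := by
    rw [e3]
    refine Local.memLocalIdeal_mul_right ?_ (Local.memLocalRing_mul (Local.memLocalRing_inv_natCast hM hU)
      (Local.memLocalRing_sum fun u _ => Local.memLocalRing_mul (Osima.memLocalRing_blockCoeff hM hB _)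
        (Local.memLocalRing_of_isIntegral (hint u))))
    exact (Local.memLocalIdeal_natCast_iff hM _).2 hG
  rw [Knorr.charDegree_eq χ₀.2] at h3
  exact (Local.memLocalIdeal_natCast_iff hM _).1 h3

theorem mu_eq_classInner [Fintype G] (B : Subgroup G) [Fintype ↥B] (χ : G → ℂ) :
    mu B χ = classInner (χ ∘ B.subtype) (1 : ↥B → ℂ) := by
  rw [mu, classInner_def, finsum_eq_sum_of_fintype]
  congr 1
  refine Finset.sum_congr rfl fun x _ => ?_
  rw [Pi.one_apply, map_one, mul_one]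
  rfl

/-- at most one constituent -/
theorem unique_of_one [Fintype G] (U B : Subgroup G) [Fintype ↥U] [Fintype ↥B] (ψ : ↥U →* ℂˣ)
    (h : classInner (indFun B (1 : ↥B → ℂ) ∘ U.subtype) (fun u : ↥U => (ψ u : ℂ)) = 1) (χ χ' : IrrCharacter G)
    (h1 : classInner ((χ : G → ℂ) ∘ U.subtype) (fun u : ↥U => (ψ u : ℂ)) ≠ 0) (h2 : mu B (χ : G → ℂ) ≠ 0)
    (h1' : classInner ((χ' : G → ℂ) ∘ U.subtype) (fun u : ↥U => (ψ u : ℂ)) ≠ 0) (h2' : mu B (χ' : G → ℂ) ≠ 0) :
    χ = χ' := by
  classical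
  have := finite_irr (G := G)
  have := Fintype.ofFinite (IrrCharacter G)
  have hψ : IsCharacter ↥U (fun u : ↥U => (ψ u : ℂ)) := Cfsg.Agent.Characters.Linear.isCharacter_hom ψ
  have hf : IsCharacter G (indFun B (1 : ↥B → ℂ)) := Cfsg.Agent.OddOrderCharacters.IndRes.isCharacter_indFun B isCharacter_one
  obtain ⟨m, hm⟩ := exists_nat_comb hf
  have hk : ∀ η : IrrCharacter G, ∃ k : ℕ, classInner ((η : G → ℂ) ∘ U.subtype) (fun u : ↥U => (ψ u : ℂ)) = k :=
    fun η => classInner_isNat (isCharacter_comp U.subtype (isIrr_isCharacter η.2)) hψ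
  choose k hk using hk
  have hmm : ∀ η : IrrCharacter G, mu B (η : G → ℂ) ≠ 0 → m η ≠ 0 := by
    intro η hη h0
    apply hη
    have h3 : classInner (indFun B (1 : ↥B → ℂ)) (η : G → ℂ) = m η := by
      rw [hm, classInner_sum_nsmul_irr]
    rw [classInner_indFun B _ _ (isIrr_isClassFunction η.2), h0, Nat.cast_zero] at h3
    rw [mu_eq_classInner, ← classInner_conj_symm]
    have h4 : ((η : G → ℂ) ∘ B.subtype) = fun x : ↥B => (η : G → ℂ) x := rfl
    rw [h4, h3, map_zero]
  have hsum : ∑ η : IrrCharacter G, m η * k η = 1 := by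
    have h3 : (indFun B (1 : ↥B → ℂ) ∘ U.subtype) = ∑ η : IrrCharacter G, (m η : ℂ) • ((η : G → ℂ) ∘ U.subtype) := by
      funext u
      rw [Function.comp_apply, hm, Finset.sum_apply, Finset.sum_apply]
      refine Finset.sum_congr rfl fun η _ => ?_
      rw [Pi.smul_apply, Pi.smul_apply, Function.comp_apply, nsmul_eq_mul, smul_eq_mul]
    rw [h3, classInner_sum_left] at h
    have h4 : ((∑ η : IrrCharacter G, m η * k η : ℕ) : ℂ) = 1 := by
      rw [← h, Nat.cast_sum]
      refine Finset.sum_congr rfl fun η _ => ?_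
      rw [classInner_smul_left, hk, Nat.cast_mul]
    exact_mod_cast h4
  by_contra hne
  have hk1 : k χ ≠ 0 := fun h0 => h1 (by rw [hk, h0, Nat.cast_zero])
  have hk2 : k χ' ≠ 0 := fun h0 => h1' (by rw [hk, h0, Nat.cast_zero])
  have h5 : m χ * k χ + m χ' * k χ' ≤ ∑ η : IrrCharacter G, m η * k η := by
    rw [← Finset.sum_pair (f := fun η : IrrCharacter G => m η * k η) hne]
    exact Finset.sum_le_sum_of_subset (Finset.subset_univ _)
  have h6 : 1 ≤ m χ * k χ := Nat.one_le_iff_ne_zero.2 (mul_ne_zero (hmm χ h2) hk1)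
  have h7 : 1 ≤ m χ' * k χ' := Nat.one_le_iff_ne_zero.2 (mul_ne_zero (hmm χ' h2') hk2)
  omega

end Cfsg.Agent.H596.LB
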