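import Cfsg.Agent.H596.LB.Abs
import Cfsg.Agent.H148.GG.One
import Cfsg.Agent.H148.GG.Mk
import Cfsg.Agent.H40.OC.Cor
import Cfsg.Agent.H116.RatB0.StRow

/-!
# S4879, row E8, p = 11: the Gelfand-Graev character (helper596)

* `exists_nd` : a nondegenerate linear character of `U`, for every root group datum (`X i` is a nontrivial `p`-group);
* `inner_B` : `[1_B^Y|U, ψ] = 1`;
* `exists_nonPS` : if `ℓ` divides the indices of all proper standard parabolic subgroups, the principal `ℓ`-block contains a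
  character which is not a constituent of `1_B^Y`.
-/

set_option autoImplicit false
set_option linter.unusedSectionVars false

open scoped ComplexConjugate

namespace Cfsg.Agent.H596.LB

open Cfsg CoxeterSystem Cfsg.Agent.ChevalleyStructure.CoxeterGeom Cfsg.Agent.Tits.Roots Cfsg.Agent.Tits.Core
  Cfsg.Agent.Tits.Exchange Cfsg.Agent.Nodes.Reps Cfsg.Agent.Nodes.BNOf Cfsg.Agent.Nodes.StabComb
  Cfsg.Agent.Nodes.Bruhat Cfsg.Agent.Nodes.OppDec Cfsg.Agent.Nodes.LeviDec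
  Cfsg.Agent.Characters.Core Cfsg.Agent.H148.GG Cfsg.Agent.H439.CC
open Cfsg.Agent.OddOrderCharacters.Clifford
open Cfsg.Agent.H116.RatB0 (hgen_of_GG exists_char_PJ mem_of_alt)

universe u

variable {I W Y : Type*} [Fintype I] [DecidableEq I] [Group W] [Group Y] {M : CoxeterMatrix I}
  {cs : CoxeterSystem M W} {A : I → I → ℤ} {h : IsCartan M A} {p : ℕ} {T : Subgroup Y} {n : I → Y}
  {X : (I → ℤ) → Subgroup Y}

theorem eq_w0_of_rep [Finite W] (h : IsCartan M A) {w : W} (hw : ∀ i, ¬ 0 ≤ rep cs h w (sr i)) : w = w0 cs := by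
  have hlt : ∀ i, cs.length (w * cs.simple i) < cs.length w := by
    intro i
    by_contra hcon
    exact hw i ((lt_iff' cs h w i).1 (lt_of_le_of_ne (not_lt.1 hcon) (cs.length_mul_simple_ne w i).symm))
  have h1 := isLongest_w0 cs
  -- the length of `w0 w⁻¹`
  by_contra hne
  have h2 : w⁻¹ * w0 cs ≠ 1 := fun h3 => hne (inv_mul_eq_one.1 h3)
  obtain ⟨i, hi⟩ := cs.exists_leftDescent_of_ne_one h2
  have hi' : cs.length (cs.simple i * (w⁻¹ * w0 cs)) < cs.length (w⁻¹ * w0 cs) := hi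
  have h4 := (h1.2 w⁻¹ (mem_WJ_univ cs _)).2
  have h5 := (h1.2 (cs.simple i * w⁻¹) (mem_WJ_univ cs _)).2
  have h6 := hlt i
  have h7 : cs.length (cs.simple i * w⁻¹) = cs.length (w * cs.simple i) := by
    rw [← cs.length_inv, mul_inv_rev, inv_inv, cs.inv_simple]
  have h8 : cs.length w⁻¹ = cs.length w := cs.length_inv w
  rw [mul_assoc] at h5
  omega


variable (R : RGD cs h p T n X)

include R

/-- the Mackey terms of `1_B^Y` vanish outside of the big cell -/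
theorem mk_eq_zero [Finite W] {ψ : ↥(UJ cs h X Set.univ) →* ℂˣ} [Fintype ↥(UJ cs h X Set.univ)]
    (hψ : Nd cs h X Set.univ ψ) {w : W} (hw : w ≠ w0 cs) {m : Y} (hm : Rp cs R.nsys w m) :
    mk (UJ cs h X Set.univ) (RGD.B cs h T X) 1 ψ m = 0 := by
  classical
  obtain ⟨i, hi⟩ : ∃ i, 0 ≤ rep cs h w⁻¹ (sr i) := by
    by_contra hcon
    push Not at hcon
    have h1 := eq_w0_of_rep h hcon
    apply hw
    rw [← inv_inv w, h1, w0_inv]
  obtain ⟨v, hv', hv, hne⟩ := hψ.ne i (Set.mem_univ i)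
  have h1 : m⁻¹ * v * m ∈ RGD.B cs h T X := RGD.U_le_B (RGD.le_Sup (S := RGD.Pos cs h)
    ⟨(isRoot_sr cs h i).act _, hi⟩ (R.conj_mem' hm (isRoot_sr cs h i) hv))
  have h2 : mk (UJ cs h X Set.univ) (RGD.B cs h T X) 1 ψ m =
      conj (ψ ⟨v, hv'⟩ : ℂ) * mk (UJ cs h X Set.univ) (RGD.B cs h T X) 1 ψ m := by
    conv_lhs => rw [H148.GG.mk]
    rw [H148.GG.mk, Finset.mul_sum, ← Equiv.sum_comp (Equiv.mulLeft (⟨v, hv'⟩ : ↥(UJ cs h X Set.univ)))]
    refine Finset.sum_congr rfl fun u _ => ?_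
    have e1 : ((Equiv.mulLeft (⟨v, hv'⟩ : ↥(UJ cs h X Set.univ)) u : ↥(UJ cs h X Set.univ)) : Y) = v * u := rfl
    have e2 : ψ (Equiv.mulLeft (⟨v, hv'⟩ : ↥(UJ cs h X Set.univ)) u) = ψ ⟨v, hv'⟩ * ψ u := map_mul ψ _ _
    have e3 : m⁻¹ * (v * (u : Y)) * m = (m⁻¹ * v * m) * (m⁻¹ * u * m) := by group
    rw [e1, e2, e3, Units.val_mul, map_mul]
    by_cases hu : m⁻¹ * (u : Y) * m ∈ RGD.B cs h T X
    · rw [extendByZero_of_mem _ _ hu, extendByZero_of_mem _ _ (mul_mem h1 hu), Pi.one_apply, Pi.one_apply]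
      ring
    · rw [extendByZero_of_notMem _ _ hu, extendByZero_of_notMem]
      · ring
      · intro h3
        apply hu
        have := mul_mem (inv_mem h1) h3
        rwa [inv_mul_cancel_left] at this
  have h3 : (1 - conj (ψ ⟨v, hv'⟩ : ℂ)) * mk (UJ cs h X Set.univ) (RGD.B cs h T X) 1 ψ m = 0 := by
    rw [sub_mul, one_mul, ← h2, sub_self]
  rcases mul_eq_zero.1 h3 with h4 | h4
  · exfalso
    apply hne
    have h5 : conj (ψ ⟨v, hv'⟩ : ℂ) = 1 := (sub_eq_zero.1 h4).symm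
    have h6 : (ψ ⟨v, hv'⟩ : ℂ) = 1 := by
      rw [← Complex.conj_conj (ψ ⟨v, hv'⟩ : ℂ), h5, map_one]
    exact Units.ext h6
  · exact h4

/-- **`[1_B^Y|U, ψ] = 1`** -/
theorem inner_B [Finite W] [Fintype Y] (hG : GG cs h T X = ⊤) {ψ : ↥(UJ cs h X Set.univ) →* ℂˣ}
    [Fintype ↥(UJ cs h X Set.univ)] [Fintype ↥(RGD.B cs h T X)] (hψ : Nd cs h X Set.univ ψ) :
    classInner (indFun (RGD.B cs h T X) (1 : ↥(RGD.B cs h T X) → ℂ) ∘ (UJ cs h X Set.univ).subtype)
      (fun u : ↥(UJ cs h X Set.univ) => (ψ u : ℂ)) = 1 := by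
  classical
  obtain ⟨k, hk⟩ := exists_rp cs R.nsys (w0 cs)
  have hcl : IsClassFunction ↥(RGD.B cs h T X) (1 : ↥(RGD.B cs h T X) → ℂ) := fun _ _ => rfl
  have : Fintype (ds (UJ cs h X Set.univ) (RGD.B cs h T X) k) := Fintype.ofFinite _
  have hone : ∀ u : ↥(UJ cs h X Set.univ), k⁻¹ * (u : Y) * k ∈ RGD.B cs h T X → u = 1 := by
    intro u hu
    have hu1 : (u : Y) ∈ RGD.Sup X (RGD.Pos cs h) := UJ_univ (cs := cs) (h := h) (X := X) ▸ u.2
    have h1 := mem_PW_of_conj R hk hu1 hu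
    have h2 : PW cs h (w0 cs)⁻¹ = ∅ := by
      rw [Set.eq_empty_iff_forall_notMem]
      rintro x ⟨hx, h0, h0'⟩
      rw [w0_inv] at h0'
      exact (hx.act (w0 cs)).not_pos_neg h0' (rep_w0_nonpos hx h0)
    rw [h2, Sup_empty, Subgroup.mem_bot] at h1
    exact Subtype.ext h1
  rw [classInner_res_ind (UJ cs h X Set.univ) (RGD.B cs h T X) hcl ψ k ?_]
  · have h3 : mk (UJ cs h X Set.univ) (RGD.B cs h T X) 1 ψ k = 1 := by
      rw [H148.GG.mk, Finset.sum_eq_single 1]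
      · rw [map_one, Units.val_one, map_one, mul_one, extendByZero_of_mem _ _ (by
          rw [Subgroup.coe_one, mul_one, inv_mul_cancel]; exact one_mem _), Pi.one_apply]
      · intro u _ hu
        rw [extendByZero_of_notMem _ _ fun h4 => hu (hone u h4), zero_mul]
      · intro hc
        exact absurd (Finset.mem_univ _) hc
    have h4 : Fintype.card (ds (UJ cs h X Set.univ) (RGD.B cs h T X) k) = 1 := by
      rw [Fintype.card_eq_one_iff]
      refine ⟨1, fun y => Subtype.ext ?_⟩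
      exact hone y.1 y.2
    rw [h3, h4, Nat.cast_one, inv_one, one_mul]
  · intro x hx
    have hxL : x ∈ LJ cs h T X Set.univ := by
      rw [LJ_univ, hG]
      trivial
    obtain ⟨w, -, u₁, hu₁, m, hm, u₂, hu₂, rfl⟩ := exists_UNU R hxL
    have hu₂B : u₂ ∈ RGD.B cs h T X := by
      rw [UJ_univ] at hu₂
      exact RGD.U_le_B hu₂
    rw [mk_mul _ _ hcl ψ hu₁ hu₂B]
    refine mk_eq_zero R hψ ?_ hm
    rintro rfl
    apply hx
    have h5 : k⁻¹ * m ∈ T := by
      have := hk.inv.mul hm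
      rw [inv_mul_cancel] at this
      exact this.mem_of_one
    refine ⟨u₁, hu₁, k⁻¹ * m * u₂, mul_mem (RGD.T_le_B h5) hu₂B, by group⟩

/-- a nondegenerate linear character -/
theorem exists_nd [Finite W] [Finite Y] [Fact p.Prime] : ∃ ψ : ↥(UJ cs h X Set.univ) →* ℂˣ, Nd cs h X Set.univ ψ := by
  classical
  have hex : ∀ i, ∃ f : ↥(X (sr i)) →* ℂˣ, f ≠ 1 := by
    intro i
    have hpg := R.pgrp i
    have hnt : Nontrivial ↥(X (sr i)) := by
      rw [Subgroup.nontrivial_iff_ne_bot]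
      intro h0
      apply R.notp i
      have h1 : X (-sr i) = ⊥ := by
        rw [← rep_simple_sr (h := h) (cs := cs) i, ← R.conj i _ (isRoot_sr cs h i), h0]
        exact Subgroup.map_bot _
      rw [h0, h1, sup_bot_eq]
      exact IsPGroup.of_bot
    have hnil := hpg.isNilpotent
    have hlt := Group.IsSolvable.commutator_lt_top_of_nontrivial ↥(X (sr i))
    obtain ⟨a, -, ha⟩ := SetLike.exists_of_lt hlt
    have hne : Abelianization.of a ≠ 1 := by
      intro h1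
      apply ha
      rw [← Abelianization.ker_of]
      exact h1
    obtain ⟨φ, hφ⟩ := CommGroup.exists_apply_ne_one_of_hasEnoughRootsOfUnity (Abelianization ↥(X (sr i))) ℂ hne
    refine ⟨φ.comp Abelianization.of, fun h1 => hφ ?_⟩
    exact DFunLike.congr_fun h1 a
  choose f hf using hex
  refine ⟨(∏ i, (f i).comp (H40.OC.cor R i)).comp (Subgroup.inclusion (UJ_le_U Set.univ)), ?_, ?_⟩
  · intro x hx hxs u hu' hu
    rw [MonoidHom.comp_apply, MonoidHom.finsetProd_apply]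
    refine Finset.prod_eq_one fun i _ => ?_
    rw [MonoidHom.comp_apply]
    have e : H40.OC.cor R i (Subgroup.inclusion (Cfsg.Agent.Nodes.Bruhat.UJ_le_U Set.univ) ⟨u, hu'⟩) = 1 :=
      H40.OC.cor_V R i (RGD.le_Sup (S := RGD.PosNe cs h i) ⟨hx.1, hx.2.1, hxs i⟩ hu) _
    rw [e, map_one]
  · intro i _
    obtain ⟨u, hu⟩ : ∃ u, f i u ≠ 1 := by
      by_contra hcon
      push Not at hcon
      exact hf i (MonoidHom.ext hcon)
    have h2 : (u : Y) ∈ UJ cs h X Set.univ := RGD.le_Sup (S := PosJ cs h Set.univ) (sr_mem_PosJ (Set.mem_univ i)) u.2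
    refine ⟨u, h2, u.2, ?_⟩
    rw [MonoidHom.comp_apply, MonoidHom.finsetProd_apply, Finset.prod_eq_single i]
    · rw [MonoidHom.comp_apply]
      have e : H40.OC.cor R i (Subgroup.inclusion (Cfsg.Agent.Nodes.Bruhat.UJ_le_U Set.univ) ⟨u, h2⟩) = u :=
        H40.OC.cor_X R i u.2 _
      rw [e]
      exact hu
    · intro j _ hj
      rw [MonoidHom.comp_apply]
      have e : H40.OC.cor R j (Subgroup.inclusion (Cfsg.Agent.Nodes.Bruhat.UJ_le_U Set.univ) ⟨u, h2⟩) = 1 :=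
        H40.OC.cor_ne R hj u.2 _
      rw [e, map_one]
    · intro hc
      exact absurd (Finset.mem_univ i) hc

/-- **A member of the principal block outside of the principal series**, if `ℓ` divides the indices of all proper
standard parabolic subgroups. -/
theorem exists_nonPS [Finite W] [Finite Y] [hp : Fact p.Prime] [Nonempty I] (hG : GG cs h T X = ⊤) {ℓ : ℕ}
    [hl : Fact ℓ.Prime] (hlp : ℓ ≠ p) {MM : Ideal AlgInt} (hM : IsPModular ℓ MM)
    (hJ : ∀ J : Finset I, J ≠ Finset.univ → ℓ ∣ (PJ cs h T X (J : Set I)).index) :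
    ∃ χ : IrrCharacter Y, χ ∈ principalBlock MM Y ∧ ∀ J : Set I, mu (PJ cs h T X J) (χ : Y → ℂ) = 0 := by
  classical
  have := Fintype.ofFinite Y
  obtain ⟨h1, h2⟩ := H167.AltRGD.exists_char_alt R (hgen_of_GG R hG)
  simp only [H116.RatB0.sup_eq_PJ R hG] at h1 h2
  obtain ⟨χ, hχ⟩ : ∃ χ : IrrCharacter Y, (χ : Y → ℂ) = fun g => ∑ K ∈ (Finset.univ : Finset I).powerset,
      (-1 : ℂ) ^ K.card * fixedPointCharacter (PJ cs h T X (K : Set I)) g := ⟨⟨_, h1⟩, rfl⟩
  have hval : ∀ b ∈ RGD.B cs h T X, (χ : Y → ℂ) b =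
      (Nat.card {u : RGD.Sup X (RGD.Pos cs h) // (u : Y)⁻¹ * b * u ∈ T} : ℂ) := fun b hb => by
    rw [hχ]; exact h2 b hb
  have hdeg : charDegree (χ : Y → ℂ) = Nat.card (RGD.Sup X (RGD.Pos cs h)) := by
    have h3 : (charDegree (χ : Y → ℂ) : ℂ) = (χ : Y → ℂ) 1 := (Blocks.Knorr.charDegree_eq χ.2).symm
    rw [hval 1 (one_mem _)] at h3
    have h4 : charDegree (χ : Y → ℂ) = Nat.card {u : RGD.Sup X (RGD.Pos cs h) // (u : Y)⁻¹ * 1 * u ∈ T} := by
      exact_mod_cast h3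
    rw [h4]
    exact Nat.card_congr ⟨fun u => u.1, fun u => ⟨u, by rw [mul_one, inv_mul_cancel]; exact one_mem T⟩, fun u => rfl,
      fun u => rfl⟩
  have hnd : ¬ ℓ ∣ Nat.card (RGD.Sup X (RGD.Pos cs h)) := by
    obtain ⟨k, hk⟩ := IsPGroup.iff_card.1 R.isPGroup_Upos
    rw [hk]
    intro h4
    exact hlp ((Nat.prime_dvd_prime_iff_eq hl.out hp.out).1 (hl.out.dvd_of_dvd_pow h4))
  have hmem : χ ∈ principalBlock MM Y := by
    refine mem_of_alt hM (Finset.univ : Finset I).powerset (fun K => (-1 : ℤ) ^ K.card)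
      (fun K => PJ cs h T X (K : Set I)) χ ?_ (by rw [hdeg]; exact hnd) ?_
    · intro g
      rw [hχ]
      refine Finset.sum_congr rfl fun K _ => ?_
      push_cast
      rfl
    · intro K _
      by_cases hK : K = Finset.univ
      · refine Or.inr ?_
        rw [hK, Finset.coe_univ, H554.RG.PJ_univ R hG]
      · exact Or.inl (hJ K hK)
  obtain ⟨ψ, hψ⟩ := exists_nd R
  have : Fintype ↥(UJ cs h X Set.univ) := Fintype.ofFinite _
  have : Fintype ↥(RGD.B cs h T X) := Fintype.ofFinite _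
  have hUU : Nat.card ↥(UJ cs h X Set.univ) = Nat.card (RGD.Sup X (RGD.Pos cs h)) := by rw [UJ_univ]
  have hUC : (Nat.card ↥(UJ cs h X Set.univ) : ℂ) ≠ 0 := by exact_mod_cast Nat.card_pos.ne'
  have hu : ∀ u : ↥(UJ cs h X Set.univ), u ≠ 1 → (χ : Y → ℂ) u = 0 := by
    intro u hu
    have hu1 : (u : Y) ∈ RGD.Sup X (RGD.Pos cs h) := UJ_univ (cs := cs) (h := h) (X := X) ▸ u.2
    rw [hval u (RGD.U_le_B hu1)]
    have h5 : IsEmpty {v : RGD.Sup X (RGD.Pos cs h) // (v : Y)⁻¹ * (u : Y) * v ∈ T} := by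
      refine ⟨fun v => hu ?_⟩
      have h60 : ((v.1 : Y)⁻¹ * (u : Y) * v.1) ∈ RGD.Sup X (RGD.Pos cs h) :=
        mul_mem (mul_mem (inv_mem v.1.2) hu1) v.1.2
      have h6 : ((v.1 : Y)⁻¹ * (u : Y) * v.1) ∈ RGD.Sup X (RGD.Pos cs h) ⊓ T := ⟨h60, v.2⟩
      rw [U_inf_T R, Subgroup.mem_bot] at h6
      apply Subtype.ext
      have h7 : (u : Y) = v.1 * ((v.1 : Y)⁻¹ * (u : Y) * v.1) * (v.1 : Y)⁻¹ := by group
      rw [h7, h6, mul_one, mul_inv_cancel]
      rfl
    rw [Nat.card_of_isEmpty, Nat.cast_zero]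
  have h0 : (χ : Y → ℂ) 1 = (Nat.card ↥(UJ cs h X Set.univ) : ℂ) := by
    rw [Blocks.Knorr.charDegree_eq χ.2, hdeg, hUU]
  have hinn : classInner ((χ : Y → ℂ) ∘ (UJ cs h X Set.univ).subtype) (fun u : ↥(UJ cs h X Set.univ) => (ψ u : ℂ)) = 1 := by
    rw [classInner_def, Finset.sum_eq_single 1]
    · rw [Function.comp_apply, Subgroup.coe_subtype, Subgroup.coe_one, h0, map_one, Units.val_one, map_one, mul_one,
        inv_mul_cancel₀ hUC]
    · intro u _ hne
      rw [Function.comp_apply, Subgroup.coe_subtype, hu u hne, zero_mul]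
    · intro hc
      exact absurd (Finset.mem_univ _) hc
  have hmuB : mu (RGD.B cs h T X) (χ : Y → ℂ) ≠ 0 := by
    have hBC : (Nat.card ↥(RGD.B cs h T X) : ℂ) ≠ 0 := by exact_mod_cast Nat.card_pos.ne'
    rw [mu, finsum_eq_sum_of_fintype]
    refine mul_ne_zero (inv_ne_zero hBC) ?_
    rw [Fintype.sum_congr _ _ fun b : ↥(RGD.B cs h T X) => hval b b.2, ← Nat.cast_sum]
    intro h8
    have h9 : ∑ b : ↥(RGD.B cs h T X), Nat.card {u : RGD.Sup X (RGD.Pos cs h) // (u : Y)⁻¹ * (b : Y) * u ∈ T} = 0 := by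
      exact_mod_cast h8
    rw [Finset.sum_eq_zero_iff] at h9
    have h10 := h9 1 (Finset.mem_univ _)
    have h11 : 0 < Nat.card {u : RGD.Sup X (RGD.Pos cs h) // (u : Y)⁻¹ * ((1 : ↥(RGD.B cs h T X)) : Y) * u ∈ T} := by
      have : Nonempty {u : RGD.Sup X (RGD.Pos cs h) // (u : Y)⁻¹ * ((1 : ↥(RGD.B cs h T X)) : Y) * u ∈ T} :=
        ⟨⟨1, by rw [Subgroup.coe_one, Subgroup.coe_one, inv_one, mul_one, mul_one]; exact one_mem T⟩⟩
      exact Nat.card_pos
    omega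
  by_contra hcon
  push Not at hcon
  have hall : ∀ η : IrrCharacter Y, η ∈ principalBlock MM Y → mu (RGD.B cs h T X) (η : Y → ℂ) ≠ 0 := by
    intro η hη
    obtain ⟨J, hJ'⟩ := hcon η hη
    exact mu_mono η B_le_PJ hJ'
  have hYl : ℓ ∣ Nat.card Y := by
    refine (hJ ∅ ?_).trans (Subgroup.index_dvd_card _)
    intro h12
    obtain ⟨i⟩ := ‹Nonempty I›
    have := Finset.mem_univ i
    rw [← h12] at this
    exact absurd this (Finset.notMem_empty i)
  have h13 := dvd_of_unique hM (UJ cs h X Set.univ) (by rw [hUU]; exact hnd) hYl ψ χ hmem hinn fun η hη h14 =>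
    unique_of_one (UJ cs h X Set.univ) (RGD.B cs h T X) ψ (inner_B R hG hψ) η χ h14 (hall η hη)
      (by rw [hinn]; exact one_ne_zero) hmuB
  rw [hdeg] at h13
  exact hnd h13

end Cfsg.Agent.H596.LB
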