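import Cfsg.Agent.H596.LB.GG
import Cfsg.Agent.H116.RatB0.StExc

/-!
# S4879, row E8, p = 11: a member of the principal block outside of the principal series (helper596)

* `exists_nonPS_E8` : `ℓ ∣ Φ_m(q)`, `m ∈ {2, 3, 4, 5, 6, 8, 10, 12, 15, 20, 24, 30}`.
-/

set_option autoImplicit false
set_option linter.unusedSectionVars false

namespace Cfsg.Agent.H596.LB

open Cfsg CoxeterSystem Cfsg.Agent.ChevalleyStructure.CoxeterGeom Cfsg.Agent.Tits.Roots Cfsg.Agent.Tits.Core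
  Cfsg.Agent.Tits.RootComb Cfsg.Agent.Nodes.Reps Cfsg.Agent.Nodes.BNOf
  Cfsg.Agent.Nodes.StabComb Cfsg.Agent.Nodes.Bruhat Cfsg.Agent.Nodes.LeviDec Cfsg.Agent.H35.Poin
  Cfsg.Agent.H35.PoinNum Cfsg.Agent.H35.ExcIdx Cfsg.Agent.H134.StrP
  Cfsg.Agent.ChevalleyStructure.CoxeterGeomTypes Cfsg.Lie
open Cfsg.Agent.Nodes.RGDChev Cfsg.Agent.ChevalleyStructure.NPerm
open Cfsg.Agent.H116.RatB0
open Cfsg.Agent.H554.RG
open Cfsg.Agent.H439.CC (mu)

section Gen

universe u

variable {D : ChevalleyDatum} {l : ℕ} {M : CoxeterMatrix (Fin l)} (hp : IsType D l M) (K : Type u) [Field K]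
  [Fintype K] {r f : ℕ} (hr : r.Prime) (hf : f ≠ 0) (hK : Fintype.card K = r ^ f) [CharP K r]

include hr hf hK in
theorem nonPS_of_parOrd [Nonempty (Fin l)] {g : ℕ} (hg : g ∣ r ^ f - 1)
    (hT : g * Nat.card (D.diagonalSubgroup K) = (r ^ f - 1) ^ D.rank) {dS : List ℕ} {N : ℕ}
    (hdS : ∀ d ∈ dS, 0 < d ∧ d < N) (hS : ∃ b, g * Nat.card (D.group K) = r ^ b * pr (r ^ f) dS)
    {p m : ℕ} [hp' : Fact p.Prime] (hpr : p ≠ r) (hpm : (p : ℤ) ∣ E (r ^ f) m) (hm : m < N)
    (hall : ∀ k : Fin l, ∃ (J : List (Fin l)) (dJ : List ℕ), (∀ j, j ∈ J ↔ j ≠ k) ∧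
      ((∀ (_ : Finite M.Group), RGD M.toCoxeterSystem hp.isCartan r (TT D K)
        (fun i => (⟨nn hp K i, nn_mem_group hp i⟩ : ↥(D.group K))) (XX D l K) →
        (∀ i, Nat.card (XX D l K (sr i)) = r ^ f) →
        ParOrd M.toCoxeterSystem hp.isCartan (TT D K) (XX D l K) (r ^ f) l J dJ)) ∧
      (∀ d ∈ dJ, 0 < d ∧ d < N) ∧ (∀ m < N, cnt dJ m ≤ cnt dS m) ∧ cnt dJ m < cnt dS m)
    {MM : Ideal AlgInt} (hM : IsPModular p MM) :
    ∃ χ : IrrCharacter (D.group K), χ ∈ principalBlock MM (D.group K) ∧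
      ∀ J : Set (Fin l), mu (PJ M.toCoxeterSystem hp.isCartan (TT D K) (XX D l K) J) (χ : D.group K → ℂ) = 0 := by
  have : Fact r.Prime := ⟨hr⟩
  have hfin := finite_W hp M.toCoxeterSystem
  have hR := rgd (K := K) hp M.toCoxeterSystem r
  have h2 := two_le hr hf
  have hc : ∀ i, Nat.card (XX D l K (sr i)) = r ^ f := fun i => by
    rw [card_XX hp K M.toCoxeterSystem (isRoot_sr _ _ i), Nat.card_eq_fintype_card, hK]
  refine exists_nonPS hR (GG_eq_top hp K _) hpr hM fun J hJ' => ?_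
  obtain ⟨k, hk⟩ : ∃ k, k ∉ J := by
    by_contra hcon
    push Not at hcon
    exact hJ' (Finset.eq_univ_iff_forall.2 hcon)
  have hidx : p ∣ (PJ M.toCoxeterSystem hp.isCartan (TT D K) (XX D l K) {j | j ≠ k}).index := by
    obtain ⟨J, dJ, e1, e2, e3, e4, e5⟩ := hall k
    have h3 : ({j | j ≠ k} : Set (Fin l)) = {j | j ∈ J} := by
      ext j
      exact (e1 j).symm
    rw [h3]
    exact dvd_idx h2 hdS e3 (idx_of_parOrd hp K hr hf hK _ hg hT (fun d hd => (hdS d hd).1) hS (e2 hfin hR hc)) e4 hpm hm e5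
  refine hidx.trans (Subgroup.index_dvd_of_le (PJ_mono hR ?_))
  intro j hj hjk
  subst hjk
  exact hk hj

end Gen

universe u

variable {K : Type u} [Field K] [Fintype K] {p : ℕ} [Fact p.Prime] (hpK : (p : K) ≠ 0)

include hpK in
/-- **The eleventh member for `E₈(q)`.** -/
theorem exists_nonPS_E8 {m : ℕ} (hm : m ∈ [2, 3, 4, 5, 6, 8, 10, 12, 15, 20, 24, 30])
    (hd : (p : ℤ) ∣ E (Fintype.card K) m) {MM : Ideal AlgInt} (hM : IsPModular p MM) :
    ∃ χ : IrrCharacter (chevE8.group K), χ ∈ principalBlock MM (chevE8.group K) ∧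
      ∀ J : Set (Fin 8), mu (PJ CoxeterMatrix.E₈.toCoxeterSystem hpE8.isCartan (TT chevE8 K) (XX chevE8 8 K) J)
        (χ : chevE8.group K → ℂ) = 0 := by
  obtain ⟨r, f, _, hr, hf, hK⟩ := exists_pow K
  rw [hK] at hd
  have h2 := two_le hr hf
  refine nonPS_of_parOrd hpE8 K hr hf hK (g := 1) (one_dvd _)
    (by rw [← hK]; exact Cfsg.Agent.S1035.result rfl (chevE8, 1) (by simp))
    (dS := [2, 8, 12, 14, 18, 20, 24, 30]) (N := 31) (by decide) ⟨f * 120, ?_⟩ (ne_of_cast K hpK) hd ?_ ?_ hM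
  · have h3 := Cfsg.Agent.S1065.result hK
    rw [pow_mul]
    simp only [pr_cons, pr_nil]
    rw [one_mul, h3]
    ring
  · clear hd; revert m; decide
  · intro k
    fin_cases k
    · exact ⟨_, _, by decide, fun _ R hs => oE8_1234567 R h2 hs, by decide, by decide, by clear hd; revert m; decide⟩
    · exact ⟨_, _, by decide, fun _ R hs => oE8_0234567 R h2 hs, by decide, by decide, by clear hd; revert m; decide⟩
    · exact ⟨_, _, by decide, fun _ R hs => oE8_0134567 R h2 hs, by decide, by decide, by clear hd; revert m; decide⟩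
    · exact ⟨_, _, by decide, fun _ R hs => oE8_0124567 R h2 hs, by decide, by decide, by clear hd; revert m; decide⟩
    · exact ⟨_, _, by decide, fun _ R hs => oE8_0123567 R h2 hs, by decide, by decide, by clear hd; revert m; decide⟩
    · exact ⟨_, _, by decide, fun _ R hs => oE8_0123467 R h2 hs, by decide, by decide, by clear hd; revert m; decide⟩
    · exact ⟨_, _, by decide, fun _ R hs => oE8_0123457 R h2 hs, by decide, by decide, by clear hd; revert m; decide⟩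
    · exact ⟨_, _, by decide, fun _ R hs => oE8_0123456 R h2 hs, by decide, by decide, by clear hd; revert m; decide⟩

end Cfsg.Agent.H596.LB
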