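import Cfsg.Agent.H596.LB.GGE8
import Cfsg.Agent.H116.RatB0.OrdPar

/-!
# S4879, row E8, p = 11: the member outside of the principal series, in terms of the order of `q` (helper596)
-/

set_option autoImplicit false
set_option linter.unusedSectionVars false

namespace Cfsg.Agent.H596.LB

open Cfsg CoxeterSystem Cfsg.Agent.ChevalleyStructure.CoxeterGeom Cfsg.Agent.Tits.Roots Cfsg.Agent.Tits.Core
  Cfsg.Agent.Nodes.Bruhat Cfsg.Agent.Nodes.LeviDec Cfsg.Agent.H35.Poin
  Cfsg.Agent.H35.PoinNum Cfsg.Agent.H35.ExcIdx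
  Cfsg.Agent.ChevalleyStructure.CoxeterGeomTypes Cfsg.Lie
open Cfsg.Agent.Nodes.RGDChev
open Cfsg.Agent.H116.RatB0
open Cfsg.Agent.H439.CC (mu)

universe u

/-- **The eleventh member, `q` of order `5` or `10` modulo `11`.** -/
theorem exists_nonPS_ord {K : Type u} [Field K] [Fintype K]
    (hd : orderOf ((Fintype.card K : ℕ) : ZMod 11) = 5 ∨ orderOf ((Fintype.card K : ℕ) : ZMod 11) = 10)
    {MM : Ideal AlgInt} (hM : IsPModular 11 MM) :
    ∃ χ : IrrCharacter (chevE8.group K), χ ∈ principalBlock MM (chevE8.group K) ∧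
      ∀ J : Set (Fin 8), mu (PJ CoxeterMatrix.E₈.toCoxeterSystem hpE8.isCartan (TT chevE8 K) (XX chevE8 8 K) J)
        (χ : chevE8.group K → ℂ) = 0 := by
  have h11 : Fact (Nat.Prime 11) := ⟨by norm_num⟩
  have h0 : ¬ 11 ∣ Fintype.card K := by
    intro h1
    have h2 : ((Fintype.card K : ℕ) : ZMod 11) = 0 := (ZMod.natCast_eq_zero_iff _ _).2 h1
    rw [h2] at hd
    have h3 : orderOf (0 : ZMod 11) = 0 := orderOf_zero _
    omega
  have hpK : ((11 : ℕ) : K) ≠ 0 := by
    intro h1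
    obtain ⟨r, hr⟩ := CharP.exists K
    have h2 := (CharP.cast_eq_zero_iff K r 11).1 h1
    have hrp : r.Prime := (CharP.char_is_prime_or_zero K r).resolve_right (CharP.char_ne_zero_of_finite K r)
    have h3 : r = 11 := (Nat.prime_dvd_prime_iff_eq hrp h11.out).1 h2
    subst h3
    obtain ⟨n, -, hn⟩ := FiniteField.card K 11
    exact h0 (by rw [hn]; exact dvd_pow_self 11 n.ne_zero)
  have h4 := dvd_E (p := 11) h0
  rcases hd with h5 | h5 <;> rw [h5] at h4
  · exact exists_nonPS_E8 hpK (by simp) h4 hM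
  · exact exists_nonPS_E8 hpK (by simp) h4 hM

end Cfsg.Agent.H596.LB
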